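import Cfsg.Agent.H842.RC.Split

/-!
# S3510, symplectic groups in characteristic two, `m = 2`: covers by linear elements of odd order (box M2O; helper842)
-/

set_option autoImplicit false
set_option linter.unusedVariables false
set_option linter.unusedSimpArgs false
set_option linter.unusedSectionVars false

namespace Cfsg.Agent.H842.RC

open Cfsg Cfsg.Agent.H106.RC Cfsg.Agent.H520.RC Cfsg.Agent.H385.RC Cfsg.Agent.H957.RC Cfsg.Agent.H380.RC Module MulAction

section simp

/-- simple classical subgroups are perfect, with trivial centre -/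
theorem simpCl_perfect {G : Type*} [Group G] {M : Subgroup G} (hM : SimpCl M) : ⁅M, M⁆ = M := by
  have h1 : commutator M = ⊤ := by
    rcases hM.simple.eq_bot_or_eq_top_of_normal (commutator M) inferInstance with h | h
    · exfalso
      apply hM.ncomm
      constructor
      constructor
      intro s t
      rw [← commutatorElement_eq_one_iff_mul_comm, ← Subgroup.mem_bot, ← h, commutator_def]
      exact Subgroup.commutator_mem_commutator trivial trivial
    · exact h
  have h2 := Subgroup.map_commutator (⊤ : Subgroup M) ⊤ M.subtype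
  rw [← commutator_def, h1, ← MonoidHom.range_eq_map, Subgroup.range_subtype] at h2
  exact h2.symm

theorem simpCl_center {G : Type*} [Group G] (hM : SimpCl G) : Subgroup.center G = ⊥ := by
  rcases hM.simple.eq_bot_or_eq_top_of_normal (Subgroup.center G) inferInstance with h | h
  · exact h
  · exfalso
    apply hM.ncomm
    constructor; constructor
    intro s t
    have : t ∈ Subgroup.center G := by rw [h]; trivial
    exact Subgroup.mem_center_iff.1 this s

/-- no cover by elements of a proper simple classical subgroup -/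
theorem simpCl_dead {G S Ω ι : Type} [Group G] [Finite G] [Group S] [Finite S] [MulAction G Ω] [Nonempty Ω] [Finite ι]
    {N : Subgroup G} (hE : Env G Ω N) (hIH : IH (Nat.card S)) (e : N ≃* S) {M : Subgroup G} (hMN : M ≤ N) (hne : M ≠ N)
    (hM : SimpCl M) {x : ι → G} {r : ι → ℕ} (hx : PF x r) (hcov : Cov Ω x) (hxM : ∀ i, x i ∈ M) : False := by
  have := hM.simple
  refine no_cent hE (x := x) (M := M) (fun ω => mrule_IH hIH e hMN hne (simpCl_perfect hM) (MonoidHom.id M)
    Function.surjective_id (by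
      intro m hm
      have h1 : m = 1 := hm
      rw [h1]
      exact Subgroup.one_mem _) hM.simple hM.ncomm hM.cl hM.nexc hx hcov (fun i => Subgroup.le_normalizer (hxM i)) ω)
    (fun j hj => ?_) ?_
  · apply hx.ne j
    have h1 : (⟨x j, hxM j⟩ : M) ∈ Subgroup.center M := by
      rw [Subgroup.mem_center_iff]
      intro m
      exact Subtype.ext (hj m m.2).symm
    rw [simpCl_center hM, Subgroup.mem_bot] at h1
    exact congrArg Subtype.val h1
  · rintro rfl
    have h1 : Nontrivial (⊥ : Subgroup G) := hM.simple.toNontrivial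
    exact not_subsingleton _ (inferInstance : Subsingleton (⊥ : Subgroup G))

end simp

section final

variable {F V G : Type*} [Field F] [AddCommGroup V] [Module F V] [Group G] [DistribMulAction G V]
  {B : LinearMap.BilinForm F V} {N : Subgroup G}

/-- the diagonal element `diag(l, l⁻¹)` of a hyperbolic plane -/
theorem exists_dg (h : Ev B N) {e e' : V} (he : B e e' = 1) {l : F} (hl : l ≠ 0) :
    ∃ g ∈ N, ∀ v, g • v = v + ((l + 1) * B v e') • e + ((l⁻¹ + 1) * B v e) • e' := by
  have he' : B e' e = 1 := by rw [h.symm, he]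
  let D : F → V →ₗ[F] V := fun l =>
    LinearMap.id + ((l + 1) • B.flip e').smulRight e + ((l⁻¹ + 1) • B.flip e).smulRight e'
  have hD : ∀ l v, D l v = v + ((l + 1) * B v e') • e + ((l⁻¹ + 1) * B v e) • e' := fun l v => rfl
  have hDD : ∀ l m : F, l ≠ 0 → m ≠ 0 → l * m = 1 → ∀ v, D m (D l v) = v := by
    intro l m hl hm hlm v
    have e1 : B (D l v) e' = l * B v e' := by
      simp only [hD, map_add, map_smul, LinearMap.add_apply, LinearMap.smul_apply, smul_eq_mul, he, h.self]
      linear_combination B v e' * h.two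
    have e2 : B (D l v) e = l⁻¹ * B v e := by
      simp only [hD, map_add, map_smul, LinearMap.add_apply, LinearMap.smul_apply, smul_eq_mul, he', h.self]
      linear_combination B v e * h.two
    have hm' : m = l⁻¹ := (eq_inv_of_mul_eq_one_right hlm)
    rw [hD m, e1, e2, hD l, hm', inv_inv]
    have c1 : (l⁻¹ + 1) * (l * B v e') = (l + 1) * B v e' := by field_simp; ring
    have c2 : (l + 1) * (l⁻¹ * B v e) = (l⁻¹ + 1) * B v e := by field_simp; ring
    rw [c1, c2]
    have d1 := h.vadd_self (((l + 1) * B v e') • e)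
    have d2 := h.vadd_self (((l⁻¹ + 1) * B v e) • e')
    calc _ = v + (((l + 1) * B v e') • e + ((l + 1) * B v e') • e) +
          (((l⁻¹ + 1) * B v e) • e' + ((l⁻¹ + 1) * B v e) • e') := by abel
      _ = v := by rw [d1, d2, add_zero, add_zero]
  obtain ⟨g, hg, hgv⟩ := h.surjN (LinearEquiv.ofLinearMap (D l) (D l⁻¹)
    (LinearMap.ext fun v => hDD l⁻¹ l (inv_ne_zero hl) hl (inv_mul_cancel₀ hl) v)
    (LinearMap.ext fun v => hDD l l⁻¹ hl (inv_ne_zero hl) (mul_inv_cancel₀ hl) v)) (by
    intro u v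
    change B (D l u) (D l v) = B u v
    have hl1 : l * l⁻¹ = 1 := mul_inv_cancel₀ hl
    simp only [hD, map_add, map_smul, LinearMap.add_apply, LinearMap.smul_apply, smul_eq_mul, h.self, he, he']
    rw [h.symm e v, h.symm e' v]
    linear_combination (B u e * B v e' + B u e' * B v e) * (l + l⁻¹ + 2) * h.two +
      (B u e * B v e' + B u e' * B v e) * hl1)
  exact ⟨g, hg, fun v => by rw [hgv]; rfl⟩

theorem dg_pow (h : Ev B N) {e e' : V} (he : B e e' = 1) {l : F} (hl : l ≠ 0) {g : G}
    (hg : ∀ v, g • v = v + ((l + 1) * B v e') • e + ((l⁻¹ + 1) * B v e) • e') (n : ℕ) (v : V) :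
    g ^ n • v = v + ((l ^ n + 1) * B v e') • e + (((l ^ n)⁻¹ + 1) * B v e) • e' := by
  have he' : B e' e = 1 := by rw [h.symm, he]
  induction n generalizing v with
  | zero =>
    have h2 : (1 + 1 : F) = 0 := by rw [one_add_one_eq_two, h.two]
    rw [pow_zero, one_smul, pow_zero, inv_one, h2, zero_mul, zero_mul, zero_smul, zero_smul, add_zero, add_zero]
  | succ n ih =>
    rw [pow_succ, mul_smul, ih, hg]
    simp only [map_add, map_smul, LinearMap.add_apply, LinearMap.smul_apply, smul_eq_mul, h.self, he, he']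
    have c1 : (l + 1) * B v e' + (l ^ n + 1) * (B v e' + (l + 1) * B v e' * 1 + (l⁻¹ + 1) * B v e * 0) =
        (l ^ (n + 1) + 1) * B v e' := by
      rw [pow_succ]
      linear_combination (B v e' + l ^ n * B v e' + l * B v e') * h.two
    have c2 : (l⁻¹ + 1) * B v e + ((l ^ n)⁻¹ + 1) * (B v e + (l + 1) * B v e' * 0 + (l⁻¹ + 1) * B v e * 1) =
        ((l ^ (n + 1))⁻¹ + 1) * B v e := by
      rw [pow_succ, mul_inv]
      linear_combination (B v e + (l ^ n)⁻¹ * B v e + l⁻¹ * B v e) * h.two
    rw [← c1, ← c2, add_smul, add_smul]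
    abel

/-- **Final step.**  If every point is fixed by `Sp(A)` or by `Sp(Aᗮ)`: contradiction. -/
theorem two_final [Finite F] [FiniteDimensional F V] [Finite G] {Ω : Type*} [MulAction G Ω] [Nonempty Ω] (h : Ev B N)
    (hE : Env G Ω N) (hq : 2 < Nat.card F) {A : Submodule F V} (hA : NAlt (B.restrict A)) (hA0 : A ≠ ⊥) (hA1 : A ≠ ⊤)
    (hcov : ∀ ω : Ω, (∀ g ∈ N, (∀ v ∈ B.orthogonal A, g • v = v) → g • ω = ω) ∨
      (∀ g ∈ N, (∀ v ∈ A, g • v = v) → g • ω = ω)) : False := by
  -- hyperbolic pairs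
  obtain ⟨e, heA, he0⟩ := Submodule.exists_mem_ne_zero_of_ne_bot hA0
  obtain ⟨⟨e', heA'⟩, hee⟩ := hA.exists_one (x := ⟨e, heA⟩) (fun h0 => he0 (congrArg Subtype.val h0))
  have hee : B e e' = 1 := hee
  obtain ⟨f, hfA, hf0⟩ : ∃ d ∈ B.orthogonal A, d ≠ 0 := by
    by_contra hno
    push Not at hno
    apply hA1
    rw [eq_top_iff]
    intro v _
    obtain ⟨c, d, hd, rfl⟩ := Cfsg.Agent.H727.GW.exists_decomp h.alt A (sub_nd hA) v
    rw [hno d hd, add_zero]
    exact c.2
  have horth : ∀ u ∈ A, ∀ w ∈ B.orthogonal A, B u w = 0 := fun u hu w hw => hw u hu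
  obtain ⟨f', hfA', hff⟩ : ∃ f' ∈ B.orthogonal A, B f f' = 1 := by
    obtain ⟨w, hw⟩ := h.nalt.exists_one hf0
    obtain ⟨c, d, hd, rfl⟩ := Cfsg.Agent.H727.GW.exists_decomp h.alt A (sub_nd hA) w
    refine ⟨d, hd, ?_⟩
    rw [map_add, h.symm f c, horth c c.2 f hfA, zero_add] at hw
    exact hw
  have hef : B e f = 0 := horth e heA f hfA
  have hfe : B f e = 0 := by rw [h.symm, hef]
  have hef' : B e f' = 0 := horth e heA f' hfA'
  have he'f : B e' f = 0 := horth e' heA' f hfA
  have he'f' : B e' f' = 0 := horth e' heA' f' hfA'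
  have hfe' : B f e' = 0 := by rw [h.symm, he'f]
  have hf'e : B f' e = 0 := by rw [h.symm, hef']
  have hf'e' : B f' e' = 0 := by rw [h.symm, he'f']
  have hee' : B e' e = 1 := by rw [h.symm, hee]
  have hff' : B f' f = 1 := by rw [h.symm, hff]
  -- an element of prime order
  have : Fintype F := Fintype.ofFinite F
  classical
  obtain ⟨p, hp, hpd⟩ := Nat.exists_prime_and_dvd (n := Nat.card Fˣ) (by
    rw [Nat.card_eq_fintype_card, Fintype.card_units, ← Nat.card_eq_fintype_card]
    omega)
  have := Fact.mk hp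
  obtain ⟨u, hu⟩ := exists_prime_orderOf_dvd_card' (G := Fˣ) p hpd
  obtain ⟨l, hl⟩ : ∃ l : F, l = u := ⟨_, rfl⟩
  have hl0 : l ≠ 0 := by rw [hl]; exact u.ne_zero
  have hl1 : l ≠ 1 := by
    intro h1
    rw [hl] at h1
    have h2 : u = 1 := Units.ext h1
    rw [h2, orderOf_one] at hu
    exact hp.one_lt.ne hu
  have hlp : l ^ p = 1 := by
    rw [hl, ← Units.val_pow_eq_pow_val, ← hu, pow_orderOf_eq_one, Units.val_one]
  have hl1' : 1 + l ≠ 0 := by
    intro h1
    apply hl1
    linear_combination h1 - h.two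
  have hp2 : p ≠ 2 := by
    intro h2
    rw [h2] at hlp
    apply hl1'
    have : (1 + l) * (1 + l) = 0 := by linear_combination hlp + (1 + l) * h.two
    exact mul_self_eq_zero.1 this
  obtain ⟨a, ha, hav⟩ := exists_dg h hee hl0
  obtain ⟨b, hb, hbv⟩ := exists_dg h hff hl0
  have hap : a ^ p = 1 := by
    apply h.inj
    intro v
    have h2 : (1 + 1 : F) = 0 := by rw [one_add_one_eq_two, h.two]
    rw [dg_pow h hee hl0 hav, hlp, inv_one, h2, zero_mul, zero_mul, zero_smul, zero_smul, add_zero, add_zero]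
  have hbp : b ^ p = 1 := by
    apply h.inj
    intro v
    have h2 : (1 + 1 : F) = 0 := by rw [one_add_one_eq_two, h.two]
    rw [dg_pow h hff hl0 hbv, hlp, inv_one, h2, zero_mul, zero_mul, zero_smul, zero_smul, add_zero, add_zero]
  have hab : a * b = b * a := by
    apply h.ext
    intro v
    rw [mul_smul, mul_smul, hav, hbv, hbv, hav]
    simp only [map_add, map_smul, LinearMap.add_apply, LinearMap.smul_apply, smul_eq_mul, hef, hfe, hef', he'f, he'f',
      hfe', hf'e, hf'e', mul_zero, add_zero]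
    abel
  -- the group `U`
  have hu : ∀ c : F, ∃ g ∈ N, ∀ v, g • v = v + (c * B v e) • f + (c * B v f) • e := by
    intro c
    have h1 : B (c • e) f = 0 := by rw [map_smul, LinearMap.smul_apply, hef, smul_zero]
    refine ⟨h.sr h1, h.sr_mem h1, fun v => ?_⟩
    rw [h.sr_apply, map_smul, smul_smul, smul_eq_mul, mul_comm (B v f) c]
  choose u' hu'N hu' using hu
  have hadd : ∀ c d, u' (c + d) = u' c * u' d := by
    intro c d
    apply h.ext
    intro v
    rw [mul_smul, hu', hu', hu']
    simp only [map_add, map_smul, LinearMap.add_apply, LinearMap.smul_apply, smul_eq_mul, hef, hfe, h.self, mul_zero,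
      add_zero, add_mul, add_smul]
    abel
  have hzero : u' 0 = 1 := by
    apply h.inj
    intro v
    rw [hu', zero_mul, zero_mul, zero_smul, zero_smul, add_zero, add_zero]
  have hself : ∀ c, u' c * u' c = 1 := by
    intro c
    rw [← hadd, h.add_self, hzero]
  have hinv : ∀ c, (u' c)⁻¹ = u' c := fun c => inv_eq_of_mul_eq_one_left (hself c)
  let U : Subgroup G :=
    { carrier := {g | ∃ c, u' c = g}
      one_mem' := ⟨0, hzero⟩
      mul_mem' := by
        rintro _ _ ⟨c, rfl⟩ ⟨d, rfl⟩
        exact ⟨c + d, hadd c d⟩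
      inv_mem' := by
        rintro _ ⟨c, rfl⟩
        exact ⟨c, (hinv c).symm⟩ }
  have hUp : IsPGroup 2 U := by
    rintro ⟨_, c, rfl⟩
    refine ⟨1, Subtype.ext ?_⟩
    show (u' c) ^ (2 ^ 1) = 1
    rw [pow_one, pow_two, hself]
  have hca : ∀ c, a * u' c * a⁻¹ = u' (l * c) := by
    intro c
    rw [mul_inv_eq_iff_eq_mul]
    apply h.ext
    intro v
    rw [mul_smul, mul_smul, hu', hu', hav, hav]
    simp only [map_add, map_smul, LinearMap.add_apply, LinearMap.smul_apply, smul_eq_mul, hef, hfe, hef', he'f, he'f',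
      hfe', hf'e, hf'e', hee, hee', hff, hff', h.self, mul_zero, add_zero, mul_one]
    have c1 : l * c * (B v e + (l⁻¹ + 1) * B v e) = c * B v e := by
      field_simp
      linear_combination c * B v e * l * h.two
    have c2 : c * B v f + (l + 1) * (c * B v f) = l * c * B v f := by
      linear_combination c * B v f * h.two
    rw [c1, ← c2, add_smul (c * B v f)]
    simp only [mul_add, add_smul]
    abel
  have hcb : ∀ c, b * u' c * b⁻¹ = u' (l * c) := by
    intro c
    rw [mul_inv_eq_iff_eq_mul]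
    apply h.ext
    intro v
    rw [mul_smul, mul_smul, hu', hu', hbv, hbv]
    simp only [map_add, map_smul, LinearMap.add_apply, LinearMap.smul_apply, smul_eq_mul, hef, hfe, hef', he'f, he'f',
      hfe', hf'e, hf'e', hee, hee', hff, hff', h.self, mul_zero, add_zero, mul_one]
    have c1 : l * c * (B v f + (l⁻¹ + 1) * B v f) = c * B v f := by
      field_simp
      linear_combination c * B v f * l * h.two
    have c2 : c * B v e + (l + 1) * (c * B v e) = l * c * B v e := by
      linear_combination c * B v e * h.two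
    rw [c1, ← c2, add_smul (c * B v e)]
    simp only [mul_add, add_smul]
    abel
  have hcall : ∀ (i : Bool) c, (cond i a b) * u' c * (cond i a b)⁻¹ = u' (l * c) := by
    intro i c
    cases i
    · exact hcb c
    · exact hca c
  have hU1 : ∀ (i : Bool), ∀ w ∈ U, (cond i a b) * w * (cond i a b)⁻¹ ∈ U := by
    rintro i _ ⟨c, rfl⟩
    exact ⟨l * c, (hcall i c).symm⟩
  obtain ⟨n, hn⟩ := IsPGroup.iff_card.1 hUp
  refine not_cov_point hE (x := fun i : Bool => cond i a b) (r := fun _ => p) (fun _ => hp) (fun i => ?_)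
    (fun i j => ?_) (U := U) (fun ω => ?_) hU1 hUp.isNilpotent (fun i => ?_) (y := u' 1) ?_ (fun i => ?_)
  · cases i
    · exact hbp
    · exact hap
  · cases i <;> cases j
    · rfl
    · exact hab.symm
    · exact hab
    · rfl
  · rcases hcov ω with h1 | h1
    · refine ⟨true, h1 a ha fun v hv => ?_⟩
      have e1 : B v e = 0 := by rw [h.symm]; exact horth e heA v hv
      have e2 : B v e' = 0 := by rw [h.symm]; exact horth e' heA' v hv
      rw [hav, e1, e2, mul_zero, mul_zero, zero_smul, zero_smul, add_zero, add_zero]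
    · refine ⟨false, h1 b hb fun v hv => ?_⟩
      have e1 : B v f = 0 := horth v hv f hfA
      have e2 : B v f' = 0 := horth v hv f' hfA'
      rw [hbv, e1, e2, mul_zero, mul_zero, zero_smul, zero_smul, add_zero, add_zero]
  · show Nat.Coprime p (Nat.card U)
    rw [hn]
    exact Nat.Coprime.pow_right _ ((Nat.coprime_primes hp Nat.prime_two).2 hp2)
  · intro h1
    have h2 := hu' 1 e'
    rw [h1, one_smul, hee', he'f, mul_zero, zero_smul, add_zero, one_mul, one_smul, left_eq_add] at h2
    exact hf0 h2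
  · have h1 := mem_cmm (x := cond i a b) (u := u' (1 + l)⁻¹) (U := U) ⟨_, rfl⟩
    have h2 : u' (1 + l)⁻¹ * cond i a b * (u' (1 + l)⁻¹)⁻¹ * (cond i a b)⁻¹ = u' 1 := by
      calc _ = u' (1 + l)⁻¹ * (cond i a b * (u' (1 + l)⁻¹)⁻¹ * (cond i a b)⁻¹) := by group
        _ = u' (1 + l)⁻¹ * u' (l * (1 + l)⁻¹) := by rw [hinv, hcall]
        _ = u' 1 := by
          rw [← hadd]
          congr 1
          field_simp
    rw [h2] at h1
    exact h1

end final

section two

variable {F V G Ω S : Type} [Field F] [Finite F] [AddCommGroup V] [Module F V] [FiniteDimensional F V] [Group G]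
  [Finite G] [DistribMulAction G V] {B : LinearMap.BilinForm F V} {N : Subgroup G} [MulAction G Ω] [Group S] [Finite S]

theorem resN_pow (h : Ev B N) [Finite V] {g : G} (hg : g ∈ N) {A : Submodule F V} (hA : ∀ v ∈ A, g • v ∈ A) (n : ℕ)
    (a : A) : (((resN h hg hA ^ n).1 a : A) : V) = g ^ n • (a : V) := by
  induction n with
  | zero => rw [pow_zero, pow_zero, one_smul]; rfl
  | succ n ih =>
    rw [pow_succ', pow_succ', mul_smul, ← ih]
    exact resN_apply h hg hA _

/-- over `F₄`, at most one of the elements acts nontrivially on an invariant nondegenerate plane -/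
theorem four_one (h : Ev B N) {ι : Type} {x : ι → G} {r : ι → ℕ} (hx : PF x r) (hN : ∀ i, x i ∈ N)
    {A : Submodule F V} (hA : NAlt (B.restrict A)) (hA2 : finrank F A = 2) (hF : Nat.card F = 4)
    (hinv : ∀ i, ∀ v ∈ A, x i • v ∈ A) {i j : ι} (hij : i ≠ j) :
    (∀ v ∈ A, x i • v = v) ∨ ∀ v ∈ A, x j • v = v := by
  have : Finite V := Module.finite_of_finite F
  by_contra hno
  rw [not_or] at hno
  rw [← resN_eq_one h (hN i) (hinv i), ← resN_eq_one h (hN j) (hinv j)] at hno
  have hp : ∀ i, resN h (hN i) (hinv i) ^ r i = 1 := by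
    intro i
    apply Subtype.ext
    apply LinearEquiv.ext
    intro a
    apply Subtype.ext
    rw [resN_pow, hx.pow, one_smul]
    rfl
  have hi := Fact.mk (hx.prime i)
  have hj := Fact.mk (hx.prime j)
  have oi := orderOf_eq_prime (hp i) hno.1
  have oj := orderOf_eq_prime (hp j) hno.2
  have hc : Commute (resN h (hN i) (hinv i)) (resN h (hN j) (hinv j)) := by
    apply Subtype.ext
    apply LinearEquiv.ext
    intro a
    apply Subtype.ext
    have h1 := congrArg (fun z : G => z • (a : V)) (hx.comm i j)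
    simp only [mul_smul] at h1
    exact h1
  have hcop : (r i).Coprime (r j) := (Nat.coprime_primes hi.1 hj.1).2 fun h1 => hij (hx.inj h1)
  have ho := hc.orderOf_mul_eq_mul_orderOf_of_coprime (by rw [oi, oj]; exact hcop)
  rw [oi, oj] at ho
  have key : ∀ k : ℕ, k.Prime → (resN h (hN i) (hinv i) * resN h (hN j) (hinv j)) ^ k ≠ 1 := by
    intro k hk h1
    have h2 := orderOf_dvd_of_pow_eq_one h1
    rw [ho] at h2
    have h3 : r i = k := (Nat.prime_dvd_prime_iff_eq hi.1 hk).1 ((Nat.dvd_mul_right _ _).trans h2)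
    have h4 : r j = k := (Nat.prime_dvd_prime_iff_eq hj.1 hk).1 ((Nat.dvd_mul_left _ _).trans h2)
    exact hij (hx.inj (h3.trans h4.symm))
  rcases sp_two_four hA h.two hF hA2 (resN h (hN i) (hinv i) * resN h (hN j) (hinv j)) with h1 | h1 | h1
  · exact key 2 Nat.prime_two h1
  · exact key 3 Nat.prime_three h1
  · exact key 5 Nat.prime_five h1

theorem card_even (h : Ev B N) : ¬ Odd (Nat.card F) := by
  intro ho
  have : Fintype F := Fintype.ofFinite F
  have hc : CharP F 2 := CharTwo.of_one_ne_zero_of_two_eq_zero one_ne_zero h.two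
  obtain ⟨n, -, hn⟩ := FiniteField.card F 2
  rw [Nat.card_eq_fintype_card, hn, Nat.odd_pow_iff n.ne_zero] at ho
  exact absurd ho (by decide)

/-- **M-rule for a nondegenerate plane.** -/
theorem plane_rule (h : Ev B N) (hE : Env G Ω N) (hIH : IH (Nat.card S)) (eS : N ≃* S) (hdim : finrank F V = 4)
    (hq : 2 < Nat.card F) {ι : Type} [Finite ι] {x : ι → G} {r : ι → ℕ} (hx : PF x r) (hcov : Cov Ω x)
    (hN : ∀ i, x i ∈ N) {A : Submodule F V} (hA : NAlt (B.restrict A)) (hA2 : finrank F A = 2)
    (hinv : ∀ i, ∀ v ∈ A, x i • v ∈ A)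
    (hg : Nat.card F = 4 → ∃ i₀, ∀ i, i ≠ i₀ → ∀ v ∈ A, x i • v = v) (ω : Ω) :
    (∀ g ∈ N, (∀ v ∈ B.orthogonal A, g • v = v) → g • ω = ω) ∨ ∃ i, (∀ v ∈ A, x i • v = v) ∧ x i • ω = ω := by
  have h5 := card_even h
  have h4 : 4 ≤ Nat.card F := by
    by_contra hlt
    have h3 : Nat.card F = 3 := by omega
    rw [h3] at h5
    exact h5 (by decide)
  refine sp_rule h hE hIH eS (by omega) (Or.inr (Or.inr h4)) hx hcov hN hA (fun ht => ?_) hinv
    (Or.inr (Or.inr ⟨by omega, h4⟩)) ?_ ω
  · rw [ht, finrank_top] at hA2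
    omega
  · by_cases hF : Nat.card F = 4
    · exact Or.inr (hg hF)
    · exact Or.inl (not_exc_Sp2 hA hA2 hF (fun h6 => h5 (by rw [h6]; decide)) (fun h6 => h5 (by rw [h6]; decide)))

theorem orth_nalt (hB : NAlt B) {A : Submodule F V} (hA : NAlt (B.restrict A)) : NAlt (B.restrict (B.orthogonal A)) := by
  refine ⟨fun u => hB.alt u, fun u hu => ?_⟩
  apply Subtype.ext
  apply hB.nd
  intro v
  obtain ⟨c, d, hd, rfl⟩ := Cfsg.Agent.H727.GW.exists_decomp hB.alt A (sub_nd hA) v
  rw [map_add, hB.swap0 (u.2 c c.2), zero_add]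
  exact hu ⟨d, hd⟩

/-- **First step.**  Every point is fixed by `Sp(A)` or `Sp(Aᗮ)`. -/
theorem two_cov [Nonempty Ω] (h : Ev B N) (hE : Env G Ω N) (hIH : IH (Nat.card S)) (eS : N ≃* S) (hdim : finrank F V = 4)
    (hq : 2 < Nat.card F) {ι : Type} [Finite ι] {x : ι → G} {r : ι → ℕ} (hx : PF x r) (hcov : Cov Ω x)
    (hN : ∀ i, x i ∈ N) (hodd : ∀ i, r i ≠ 2) {A : Submodule F V} (hA : NAlt (B.restrict A)) (hA2 : finrank F A = 2)
    (hinv : ∀ i, ∀ v ∈ A, x i • v ∈ A) (ω : Ω) :
    (∀ g ∈ N, (∀ v ∈ B.orthogonal A, g • v = v) → g • ω = ω) ∨ (∀ g ∈ N, (∀ v ∈ A, g • v = v) → g • ω = ω) := by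
  classical
  have : Finite V := Module.finite_of_finite F
  have hAA : B.orthogonal (B.orthogonal A) = A :=
    LinearMap.BilinForm.orthogonal_orthogonal (nondeg_of h.nalt) (refl_of h.nalt) A
  have hA' := orth_nalt h.nalt hA
  have hA'2 : finrank F (B.orthogonal A) = 2 := by
    rw [LinearMap.BilinForm.finrank_orthogonal (nondeg_of h.nalt), hdim, hA2]
  have hinv' : ∀ i, ∀ v ∈ B.orthogonal A, x i • v ∈ B.orthogonal A := fun i v hv => (lft h (x i)).orth_mem A (hinv i) hv
  -- a default index
  have hone : ∀ (A : Submodule F V), NAlt (B.restrict A) → finrank F A = 2 → (∀ i, ∀ v ∈ A, x i • v ∈ A) →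
      Nat.card F = 4 → ∃ i₀, ∀ i, i ≠ i₀ → ∀ v ∈ A, x i • v = v := by
    intro A hA hA2 hinv hF
    by_cases hex : ∃ i, ¬ ∀ v ∈ A, x i • v = v
    · obtain ⟨i₀, hi₀⟩ := hex
      exact ⟨i₀, fun i hi => (four_one h hx hN hA hA2 hF hinv hi).resolve_right hi₀⟩
    · push Not at hex
      obtain ⟨i, -⟩ := hcov ω
      exact ⟨i, fun j _ => hex j⟩
  have hrule := fun ω => plane_rule h hE hIH eS hdim hq hx hcov hN hA hA2 hinv (hone A hA hA2 hinv) ω
  by_cases hall : ∀ (e : A) (c : F), h.tr (e : V) c • ω = ω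
  · left
    intro g hg hgA
    obtain ⟨t, rfl⟩ := exists_emb h hg hA hgA
    let K : Subgroup (Sp (B.restrict A)) := (stabilizer G ω).comap (h.rho.comp (emb h.nalt hA))
    have hK : K = ⊤ := gen_tv hA K fun e c => by
      show h.rho (emb h.nalt hA (tv hA e c)) • ω = ω
      have h1 : h.rho (emb h.nalt hA (tv hA e c)) = h.tr (e : V) c := by
        apply h.ext
        intro v
        rw [h.rho_apply, emb_tv, tv_apply, h.tr_apply]
      rw [h1]
      exact hall e c
    have h1 : t ∈ K := by rw [hK]; trivial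
    exact h1
  · right
    push Not at hall
    obtain ⟨e, c, hy⟩ := hall
    obtain ⟨y, hyd⟩ : ∃ y, y = h.tr (e : V) c := ⟨_, rfl⟩
    have hyv : ∀ v : V, y • v = v + (c * B v e) • (e : V) := by
      intro v; rw [hyd]; exact h.tr_apply _ _ _
    have hyN : y ∈ N := by rw [hyd]; exact h.tr_mem _ _
    have hyy : y * y = 1 := by rw [hyd]; exact h.tr_sq _ _
    rw [← hyd] at hy
    have hyA' : ∀ v ∈ B.orthogonal A, y • v = v := by
      intro v hv
      have h1 : B v (e : V) = 0 := by rw [h.symm]; exact hv e e.2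
      rw [hyv, h1, mul_zero, zero_smul, add_zero]
    let z : Option {j : ι // ∀ v ∈ A, x j • v = v} → G := fun o => o.elim y (fun j => x j.1)
    let r' : Option {j : ι // ∀ v ∈ A, x j • v = v} → ℕ := fun o => o.elim 2 (fun j => r j.1)
    have hcomm : ∀ j : {j : ι // ∀ v ∈ A, x j • v = v}, y * x j.1 = x j.1 * y := by
      intro j
      apply h.ext
      intro v
      rw [mul_smul, mul_smul, hyv, hyv, smul_add, h.lin (hN _), j.2 e e.2]
      have h1 := h.isom (hN j.1) v (e : V)
      rw [j.2 e e.2] at h1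
      rw [h1]
    have hz : PF z r' := by
      refine ⟨?_, ?_, ?_, ?_, ?_⟩
      · rintro (_ | j)
        · exact Nat.prime_two
        · exact hx.prime j.1
      · rintro (_ | j) (_ | k) hjk
        · rfl
        · exact absurd hjk.symm (hodd k.1)
        · exact absurd hjk (hodd j.1)
        · exact congrArg some (Subtype.ext (hx.inj hjk))
      · rintro (_ | j)
        · show y ^ 2 = 1
          rw [pow_two, hyy]
        · exact hx.pow j.1
      · rintro (_ | j)
        · intro h1
          apply hy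
          have h2 : y = 1 := h1
          rw [h2, one_smul]
        · exact hx.ne j.1
      · rintro (_ | j) (_ | k)
        · rfl
        · exact hcomm k
        · exact (hcomm j).symm
        · exact hx.comm _ _
    have hzc : Cov Ω z := by
      intro ω'
      rcases hrule ω' with h1 | ⟨i, h1, h2⟩
      · exact ⟨none, h1 y hyN hyA'⟩
      · exact ⟨some ⟨i, h1⟩, h2⟩
    have hzN : ∀ o, z o ∈ N := by
      rintro (_ | j)
      · exact hyN
      · exact hN j.1
    have hzA' : ∀ o, ∀ v ∈ B.orthogonal A, z o • v ∈ B.orthogonal A := by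
      rintro (_ | j) v hv
      · show y • v ∈ _
        rw [hyA' v hv]
        exact hv
      · exact hinv' j.1 v hv
    rcases plane_rule h hE hIH eS hdim hq hz hzc hzN hA' hA'2 hzA' (fun hF => by
      obtain ⟨i₀, hi₀⟩ := hone _ hA' hA'2 hinv' hF
      by_cases hJ : ∀ v ∈ A, x i₀ • v = v
      · refine ⟨some ⟨i₀, hJ⟩, ?_⟩
        rintro (_ | j) hj
        · exact hyA'
        · exact hi₀ j.1 (fun h1 => hj (congrArg some (Subtype.ext h1)))
      · refine ⟨none, ?_⟩
        rintro (_ | j) hj
        · exact hyA'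
        · exact hi₀ j.1 (fun h1 => hJ (h1 ▸ j.2))) ω with h1 | ⟨o, h1, h2⟩
    · rw [hAA] at h1
      exact h1
    · exfalso
      rcases o with _ | j
      · exact hy h2
      · apply hx.ne j.1
        apply h.inj
        intro v
        obtain ⟨c, d, hd, rfl⟩ := Cfsg.Agent.H727.GW.exists_decomp h.alt A (sub_nd hA) v
        rw [smul_add, j.2 c c.2]
        congr 1
        exact h1 d hd

end two

section main

variable {F V G Ω S : Type} [Field F] [Finite F] [AddCommGroup V] [Module F V] [FiniteDimensional F V] [Group G]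
  [Finite G] [DistribMulAction G V] {B : LinearMap.BilinForm F V} {N : Subgroup G} [MulAction G Ω] [Nonempty Ω]
  [Group S] [Finite S]

/-- an element of the closure of a commuting family is killed by the product of the orders -/
theorem pow_prod {ι : Type*} [Fintype ι] {x : ι → G} {r : ι → ℕ} (hx : PF x r) {g : G}
    (hg : g ∈ Subgroup.closure (Set.range x)) : g ^ (∏ i, r i) = 1 := by
  have hc1 : ∀ j, ∀ g ∈ Subgroup.closure (Set.range x), Commute g (x j) := by
    intro j g hg
    induction hg using Subgroup.closure_induction with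
    | mem y hy => obtain ⟨i, rfl⟩ := hy; exact hx.comm i j
    | one => exact Commute.one_left _
    | mul a b _ _ ha hb => exact Commute.mul_left ha hb
    | inv a _ ha => exact Commute.inv_left ha
  have hc2 : ∀ a ∈ Subgroup.closure (Set.range x), ∀ b ∈ Subgroup.closure (Set.range x), Commute a b := by
    intro a ha b hb
    induction hb using Subgroup.closure_induction with
    | mem y hy => obtain ⟨i, rfl⟩ := hy; exact hc1 i a ha
    | one => exact Commute.one_right _
    | mul b c _ _ hb hc => exact Commute.mul_right hb hc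
    | inv b _ hb => exact Commute.inv_right hb
  induction hg using Subgroup.closure_induction with
  | mem y hy =>
    obtain ⟨i, rfl⟩ := hy
    obtain ⟨k, hk⟩ : r i ∣ ∏ i, r i := Finset.dvd_prod_of_mem r (Finset.mem_univ i)
    rw [hk, pow_mul, hx.pow, one_pow]
  | one => exact one_pow _
  | mul a b ha hb iha ihb => rw [(hc2 a ha b hb).mul_pow, iha, ihb, one_mul]
  | inv a _ ha => rw [inv_pow, ha, inv_one]

/-- the map `g + g⁻¹` -/
noncomputable def sumInv (h : Ev B N) {g : G} (hg : g ∈ N) : V →ₗ[F] V :=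
  (h.le hg : V →ₗ[F] V) + (h.le (N.inv_mem hg) : V →ₗ[F] V)

theorem sumInv_apply (h : Ev B N) {g : G} (hg : g ∈ N) (v : V) : sumInv h hg v = g • v + g⁻¹ • v := rfl

theorem sumInv_adj (h : Ev B N) {g : G} (hg : g ∈ N) (u v : V) : B (sumInv h hg u) v = B u (sumInv h hg v) := by
  have h1 := h.isom (N.inv_mem hg) (g • u) v
  have h2 := h.isom hg (g⁻¹ • u) v
  rw [inv_smul_smul] at h1
  rw [smul_inv_smul] at h2
  rw [sumInv_apply, sumInv_apply, map_add, map_add, LinearMap.add_apply, ← h1, ← h2, add_comm]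

open Polynomial in
/-- `g + g⁻¹` is semisimple if `g` has odd order -/
theorem sumInv_squarefree (h : Ev B N) {g : G} (hg : g ∈ N) {n : ℕ} (hn : g ^ n = 1) (hodd : Odd n) :
    Squarefree (minpoly F (sumInv h hg)) := by
  have hpow : ∀ (k : ℕ) (v : V), (((h.le hg : V →ₗ[F] V) : Module.End F V) ^ k) v = g ^ k • v := by
    intro k
    induction k with
    | zero => intro v; rw [pow_zero, pow_zero, one_smul]; rfl
    | succ k ih =>
      intro v
      rw [pow_succ, Module.End.mul_apply, ih, pow_succ, mul_smul]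
      rfl
  have hn0 : n ≠ 0 := by rintro rfl; exact absurd hodd (by decide)
  have h1 : Module.End.IsSemisimple ((h.le hg : V →ₗ[F] V) : Module.End F V) := by
    refine Module.End.isSemisimple_of_squarefree_aeval_eq_zero (p := X ^ n - 1) ?_ ?_
    · refine (X_pow_sub_one_separable_iff.2 ?_).squarefree
      obtain ⟨k, rfl⟩ := hodd
      push_cast
      rw [h.two, zero_mul, zero_add]
      exact one_ne_zero
    · apply LinearMap.ext
      intro v
      rw [map_sub, map_pow, aeval_X, map_one, LinearMap.sub_apply, hpow, hn, one_smul]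
      exact sub_self v
  have h2 : sumInv h hg = aeval ((h.le hg : V →ₗ[F] V) : Module.End F V) (X + X ^ (n - 1) : F[X]) := by
    apply LinearMap.ext
    intro v
    rw [map_add, map_pow, aeval_X, LinearMap.add_apply, hpow, sumInv_apply]
    congr 2
    rw [eq_comm, ← mul_eq_one_iff_eq_inv, ← pow_succ, Nat.sub_add_cancel (Nat.pos_of_ne_zero hn0), hn]
  have h3 : Module.End.IsSemisimple (sumInv h hg : Module.End F V) := by
    rw [h2]
    exact h1.aeval _
  exact h3.minpoly_squarefree

/-- the centraliser of a nonscalar map is proper -/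
theorem centN_ne (h : Ev B N) (hdim : 2 ≤ finrank F V) (a : V →ₗ[F] V) (hdeg : 2 ≤ (minpoly F a).natDegree) :
    centN N a ≠ N := by
  intro hN
  have h1 : ∀ e : V, ∃ c : F, a.toAddMonoidHom e = c • e := by
    intro e
    by_cases he : e = 0
    · exact ⟨0, by rw [he, map_zero, smul_zero]⟩
    obtain ⟨v, hv⟩ := h.nalt.exists_one he
    have h2 : h.tr e 1 ∈ centN N a := by rw [hN]; exact h.tr_mem e 1
    have h3 := h2.2 v
    rw [h.tr_apply, h.tr_apply, map_add, map_smul, h.symm v e, hv, one_mul, one_mul, one_smul, add_right_inj] at h3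
    exact ⟨_, h3.symm⟩
  obtain ⟨c, hc⟩ := scal_of_lines hdim _ h1
  have h2 : a = algebraMap F (Module.End F V) c := LinearMap.ext fun v => hc v
  have h3 : (minpoly F a).natDegree ≤ 1 := by
    have h4 : (Polynomial.X - Polynomial.C c : Polynomial F).natDegree = 1 := Polynomial.natDegree_X_sub_C c
    rw [← h4]
    refine Polynomial.natDegree_le_of_dvd (minpoly.dvd F a ?_) (Polynomial.X_sub_C_ne_zero c)
    rw [map_sub, Polynomial.aeval_X, Polynomial.aeval_C, ← h2, sub_self]
  omega

/-- **M2O** : `m = 2`, `|F| > 2`, all members of the cover linear of odd order. -/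
theorem m2o (h : Ev B N) (hE : Env G Ω N) (hIH : IH (Nat.card S)) (eS : N ≃* S) {ι : Type} [Finite ι] {x : ι → G}
    {r : ι → ℕ} (hx : PF x r) (hcov : Cov Ω x) (hdim : finrank F V = 4) (hq : 2 < Nat.card F) (hlin : ∀ i, x i ∈ N)
    (hodd : ∀ i, r i ≠ 2) : False := by
  classical
  have : Fintype ι := Fintype.ofFinite ι
  have : Nontrivial V := Module.nontrivial_of_finrank_pos (R := F) (by omega)
  obtain ⟨g, hgc, hgx⟩ := exists_gen x r hx.prime hx.inj hx.pow hx.comm
  have hgN : g ∈ N := by
    have : Subgroup.closure (Set.range x) ≤ N := by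
      rw [Subgroup.closure_le]
      rintro _ ⟨i, rfl⟩
      exact hlin i
    exact this hgc
  have hgn := pow_prod hx hgc
  have hoddn : Odd (∏ i, r i) := by
    rw [Nat.odd_iff, ← Nat.not_even_iff, even_iff_two_dvd]
    intro h1
    obtain ⟨i, -, hi⟩ := (Prime.dvd_finsetProd_iff Nat.prime_two.prime _).1 h1
    exact hodd i ((Nat.prime_dvd_prime_iff_eq Nat.prime_two (hx.prime i)).1 hi).symm
  have hpow : ∀ i, ∃ k : ℕ, g ^ k = x i := fun i =>
    (isOfFinOrder_of_finite g).mem_powers_iff_mem_zpowers.2 (hgx i)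
  have hg2 : g * g ≠ 1 := by
    intro h1
    have h2 : orderOf g ∣ 2 := orderOf_dvd_of_pow_eq_one (by rw [pow_two, h1])
    have h3 : orderOf g ∣ ∏ i, r i := orderOf_dvd_of_pow_eq_one hgn
    have h4 : Nat.Coprime 2 (∏ i, r i) := Nat.coprime_two_left.2 hoddn
    have h5 : g = 1 := orderOf_eq_one_iff.1 (Nat.eq_one_of_dvd_coprimes h4 h2 h3)
    obtain ⟨ω⟩ := (inferInstance : Nonempty Ω)
    obtain ⟨i, -⟩ := hcov ω
    apply hx.ne i
    obtain ⟨k, hk⟩ := hpow i
    rw [← hk, h5, one_pow]
  obtain ⟨a, had⟩ : ∃ a, a = sumInv h hgN := ⟨_, rfl⟩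
  have hav : ∀ v, a v = g • v + g⁻¹ • v := by rw [had]; exact sumInv_apply h hgN
  have hadj : ∀ u v, B (a u) v = B u (a v) := by rw [had]; exact sumInv_adj h hgN
  have hsq : Squarefree (minpoly F a) := by rw [had]; exact sumInv_squarefree h hgN hgn hoddn
  have hga : g ∈ centN N a := by
    refine ⟨hgN, fun v => ?_⟩
    rw [hav, hav, smul_add, smul_inv_smul, inv_smul_smul]
  have hxa : ∀ i, x i ∈ centN N a := by
    intro i
    obtain ⟨k, hk⟩ := hpow i
    rw [← hk]
    exact Subgroup.pow_mem _ hga k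
  -- the invariant plane
  obtain ⟨A, hA2, hA, hinv⟩ : ∃ A : Submodule F V, finrank F A = 2 ∧ NAlt (B.restrict A) ∧
      ∀ i, ∀ v ∈ A, x i • v ∈ A := by
    by_cases hirr : Irreducible (minpoly F a)
    · by_cases hdeg : 2 ≤ (minpoly F a).natDegree
      · exfalso
        exact simpCl_dead hE hIH eS (M := centN N a) (fun g hg => hg.1) (centN_ne h (by omega) a hdeg)
          (cent_simpCl h a hadj hirr hdeg (by omega) (fun _ => hq)) hx hcov hxa
      · have h1 : (minpoly F a).natDegree = 1 := by
          have := minpoly.natDegree_pos (A := F) (x := a) (Algebra.IsIntegral.isIntegral a)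
          omega
        obtain ⟨τ, hτ⟩ := minpoly.natDegree_eq_one_iff.1 h1
        obtain ⟨A, h2, h3, h4⟩ := exists_split_scalar h hgN (τ := τ) (fun v => by rw [← hav, ← hτ]; rfl) hg2
        refine ⟨A, h2, h3, fun i => ?_⟩
        obtain ⟨k, hk⟩ := hpow i
        rw [← hk]
        clear hk
        induction k with
        | zero => intro v hv; rw [pow_zero, one_smul]; exact hv
        | succ k ih => intro v hv; rw [pow_succ', mul_smul]; exact h4 _ (ih v hv)
    · obtain ⟨A, h1, h2, h3, h4⟩ := exists_split h a hadj hsq hirr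
      refine ⟨A, ?_, h3, fun i => h4 _ (hlin i) (hxa i).2⟩
      obtain ⟨m, hm⟩ := exists_dim h3
      have h5 : finrank F A ≠ 0 := fun h6 => h1 (Submodule.finrank_eq_zero.1 h6)
      have h6 : finrank F A < finrank F V := Submodule.finrank_lt h2
      omega
  refine two_final h hE hq hA (fun h1 => ?_) (fun h1 => ?_)
    (fun ω => two_cov h hE hIH eS hdim hq hx hcov hlin hodd hA hA2 hinv ω)
  · rw [h1, finrank_bot] at hA2
    omega
  · rw [h1, finrank_top] at hA2
    omega

end main

end Cfsg.Agent.H842.RC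

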