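import Cfsg.Agent.H957.RC.Ind

/-!
# S3510, symplectic groups in characteristic two: decompositions and the M-rule for a nondegenerate subspace (helper842)

* `lft`, `lf_lft`, `spEnv` : from the environment `Ev` (helper385) to the environment `SpEnv` (helper520);
* `resN` : restriction of an element of `N` to an invariant subspace; `exists_emb` : the elements trivial on `Aᗮ`;
* `sp_rule` : the M-rule for `Sp(A)`, `A` nondegenerate;
* `exists_split` : `a` self-adjoint with reducible squarefree minimal polynomial: decomposition;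
* `exists_split_scalar` : `g + g⁻¹` scalar, `g² ≠ 1`: invariant nondegenerate plane;
* `sp_two_four` : elements of `Sp₂(4)`.
-/

set_option autoImplicit false
set_option linter.unusedVariables false
set_option linter.unusedSectionVars false

namespace Cfsg.Agent.H842.RC

open Cfsg Cfsg.Agent.H106.RC Cfsg.Agent.H520.RC Cfsg.Agent.H385.RC Cfsg.Agent.H957.RC Module MulAction

section env

variable {F V G : Type*} [Field F] [AddCommGroup V] [Module F V] [Group G] [DistribMulAction G V]
  {B : LinearMap.BilinForm F V} {N : Subgroup G}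

/-- the action of `x` as a semisimilitude -/
noncomputable def lft (h : Ev B N) (x : G) : SS B where
  f := DistribMulAction.toAddEquiv V x
  σ := (h.semi x).choose
  l := 1
  hl := one_ne_zero
  smul' := (h.semi x).choose_spec.1
  form' u v := by rw [one_mul]; exact (h.semi x).choose_spec.2 u v

theorem lft_apply (h : Ev B N) (x : G) (v : V) : lft h x v = x • v := rfl

theorem lf_lft (h : Ev B N) (x : G) : Lf h.rho x (lft h x) := by
  intro t
  apply h.ext
  intro v
  rw [mul_smul, mul_smul, h.rho_apply, h.rho_apply]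
  have h1 := SS.cj_apply (lft h x) t (x⁻¹ • v)
  rw [lft_apply, lft_apply, smul_inv_smul] at h1
  exact h1.symm

theorem spEnv [Finite F] [FiniteDimensional F V] (h : Ev B N) {Ω : Type*} [MulAction G Ω] (hE : Env G Ω N)
    (hdim : 4 ≤ finrank F V) : SpEnv Ω N h.rho where
  env := hE
  form := h.nalt
  range := h.range_rho
  ker t := by
    constructor
    · intro ht
      exact ⟨1, fun v => by rw [one_smul, ← h.rho_apply, ht, one_smul]⟩
    · intro ht
      have h1 : t ∈ Subgroup.center (Sp B) := (mem_center_Sp h.nalt).2 ht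
      rw [center_Sp h.nalt h.two, Subgroup.mem_bot] at h1
      rw [h1, map_one]
  lift x := ⟨_, lf_lft h x⟩
  dim := hdim

/-- restriction of an element of `N` to an invariant subspace -/
noncomputable def resN [Finite V] (h : Ev B N) {g : G} (hg : g ∈ N) {A : Submodule F V} (hA : ∀ v ∈ A, g • v ∈ A) :
    Sp (B.restrict A) :=
  ⟨LinearEquiv.ofBijective
    ({ toFun := fun a => ⟨g • (a : V), hA a a.2⟩
       map_add' := fun a b => Subtype.ext (smul_add g (a : V) (b : V))
       map_smul' := fun c a => Subtype.ext (h.lin hg c (a : V)) } : A →ₗ[F] A) (by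
      rw [← Finite.injective_iff_bijective]
      intro a b hab
      exact Subtype.ext (MulAction.injective g (congrArg Subtype.val hab))), fun u v => h.isom hg u v⟩

theorem resN_apply [Finite V] (h : Ev B N) {g : G} (hg : g ∈ N) {A : Submodule F V} (hA : ∀ v ∈ A, g • v ∈ A) (a : A) :
    (((resN h hg hA).1 a : A) : V) = g • (a : V) := rfl

theorem resN_eq_one [Finite V] (h : Ev B N) {g : G} (hg : g ∈ N) {A : Submodule F V} (hA : ∀ v ∈ A, g • v ∈ A) :
    resN h hg hA = 1 ↔ ∀ v ∈ A, g • v = v := by
  constructor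
  · intro h1 v hv
    have h2 := resN_apply h hg hA ⟨v, hv⟩
    rw [h1] at h2
    exact h2.symm
  · intro h1
    apply Subtype.ext
    apply LinearEquiv.ext
    intro v
    exact Subtype.ext (h1 v v.2)

theorem nondeg_of [FiniteDimensional F V] (h : NAlt B) : B.Nondegenerate := by
  rw [LinearMap.BilinForm.nondegenerate_iff_ker_eq_bot, LinearMap.ker_eq_bot']
  intro u hu
  exact h.nd u fun w => by rw [hu]; rfl

theorem refl_of (h : NAlt B) : B.IsRefl := fun x y hxy => h.swap0 hxy

/-- an element of `N` trivial on `Aᗮ` preserves `A` -/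
theorem stable_of_orth [FiniteDimensional F V] (h : Ev B N) {g : G} (hg : g ∈ N) {A : Submodule F V}
    (hA : ∀ v ∈ B.orthogonal A, g • v = v) : ∀ v ∈ A, g • v ∈ A := by
  intro v hv
  have h1 := LinearMap.BilinForm.orthogonal_orthogonal (nondeg_of h.nalt) (refl_of h.nalt) A
  rw [← h1, LinearMap.BilinForm.mem_orthogonal_iff]
  intro w hw
  show B w (g • v) = 0
  rw [← hA w hw, h.isom hg]
  exact h.nalt.swap0 (hw v hv)

/-- the elements of `N` trivial on `Aᗮ` come from `Sp(A)` -/
theorem exists_emb [Finite V] [FiniteDimensional F V] (h : Ev B N) {g : G} (hg : g ∈ N) {A : Submodule F V}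
    (hA : NAlt (B.restrict A)) (hgA : ∀ v ∈ B.orthogonal A, g • v = v) : ∃ t, h.rho (emb h.nalt hA t) = g := by
  refine ⟨resN h hg (stable_of_orth h hg hgA), ?_⟩
  obtain ⟨s, rfl⟩ := h.rho_surj hg
  congr 1
  apply ext_orth h.nalt hA
  · intro a ha
    have h1 := emb_apply_mem h.nalt hA (resN h hg (stable_of_orth h hg hgA)) ⟨a, ha⟩
    rw [resN_apply, h.rho_apply] at h1
    exact h1
  · intro d hd
    rw [emb_apply_orth h.nalt hA _ hd]
    have h1 := hgA d hd
    rw [h.rho_apply] at h1
    exact h1.symm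

/-- `x` preserving `A` commutes with `Sp(A)` iff it is trivial on `A` -/
theorem cent_emb_iff [Finite F] [FiniteDimensional F V] (h : Ev B N) {x : G} (hx : x ∈ N) {A : Submodule F V}
    (hA : NAlt (B.restrict A)) (hxA : ∀ v ∈ A, x • v ∈ A) :
    (∀ s, x * h.rho (emb h.nalt hA s) = h.rho (emb h.nalt hA s) * x) ↔ ∀ v ∈ A, x • v = v := by
  have : Finite V := Module.finite_of_finite F
  constructor
  · intro hc
    rw [← resN_eq_one h hx hxA, ← Subgroup.mem_bot, ← center_Sp hA h.two, Subgroup.mem_center_iff]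
    intro s
    apply Subtype.ext
    apply LinearEquiv.ext
    intro a
    apply Subtype.ext
    have h1 := congrArg (fun z : G => z • (a : V)) (hc s)
    simp only [mul_smul, h.rho_apply] at h1
    rw [emb_apply_mem] at h1
    have h2 := emb_apply_mem h.nalt hA s ⟨x • (a : V), hxA a a.2⟩
    change (emb h.nalt hA s).1 (x • (a : V)) = _ at h2
    rw [h2] at h1
    exact h1.symm
  · intro hv s
    apply h.ext
    intro v
    obtain ⟨c, d, hd, rfl⟩ := Cfsg.Agent.H727.GW.exists_decomp h.nalt.alt A (sub_nd hA) v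
    have h3 : x • d ∈ B.orthogonal A := by
      have := (lft h x).orth_mem A hxA hd
      exact this
    rw [mul_smul, mul_smul, smul_add, smul_add, smul_add, smul_add, h.rho_apply, h.rho_apply, h.rho_apply, h.rho_apply,
      emb_apply_mem, emb_apply_orth h.nalt hA _ hd, emb_apply_orth h.nalt hA _ h3, hv _ (SetLike.coe_mem _), hv _ c.2,
      emb_apply_mem]

theorem emb_not_surj [FiniteDimensional F V] (hB : NAlt B) {A : Submodule F V} (hA : NAlt (B.restrict A))
    (hAt : A ≠ ⊤) : ¬ Function.Surjective (emb hB hA) := by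
  intro hs
  obtain ⟨d, hd, hd0⟩ : ∃ d ∈ B.orthogonal A, d ≠ 0 := by
    by_contra hno
    push Not at hno
    apply hAt
    rw [eq_top_iff]
    intro v _
    obtain ⟨c, d, hd, rfl⟩ := Cfsg.Agent.H727.GW.exists_decomp hB.alt A (sub_nd hA) v
    rw [hno d hd, add_zero]
    exact c.2
  obtain ⟨s, hs⟩ := hs (tv hB d 1)
  apply hd0
  apply hB.nd' d
  intro v
  obtain ⟨c, d', hd', rfl⟩ := Cfsg.Agent.H727.GW.exists_decomp hB.alt A (sub_nd hA) v
  have h1 : B (c : V) d = 0 := (LinearMap.BilinForm.mem_orthogonal_iff.1 hd) c c.2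
  have h2 := emb_apply_orth hB hA s hd'
  rw [hs, tv_apply, one_mul, add_eq_left, smul_eq_zero] at h2
  rw [map_add, LinearMap.add_apply, h1, zero_add]
  rcases h2 with h2 | h2
  · exact h2
  · exact absurd h2 hd0

end env

section rule

variable {F V G Ω S : Type} [Field F] [Finite F] [AddCommGroup V] [Module F V] [FiniteDimensional F V] [Group G]
  [Finite G] [DistribMulAction G V] {B : LinearMap.BilinForm F V} {N : Subgroup G} [MulAction G Ω] [Group S] [Finite S]

/-- **M-rule for `Sp(A)`**, `A` a nondegenerate subspace. -/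
theorem sp_rule (h : Ev B N) (hE : Env G Ω N) (hIH : IH (Nat.card S)) (eS : N ≃* S) (hdim : 4 ≤ finrank F V)
    (hV : 6 ≤ finrank F V ∨ (finrank F V = 4 ∧ 3 ≤ Nat.card F) ∨ 4 ≤ Nat.card F)
    {ι : Type} [Finite ι] {x : ι → G} {r : ι → ℕ} (hx : PF x r) (hcov : Cov Ω x) (hN : ∀ i, x i ∈ N)
    {A : Submodule F V} (hA : NAlt (B.restrict A)) (hAt : A ≠ ⊤) (hinv : ∀ i, ∀ v ∈ A, x i • v ∈ A)
    (hd : 6 ≤ finrank F A ∨ (finrank F A = 4 ∧ 3 ≤ Nat.card F) ∨ (finrank F A ≠ 0 ∧ 4 ≤ Nat.card F))
    (hg : ¬ Exc (Sp (B.restrict A) ⧸ Subgroup.center (Sp (B.restrict A))) ∨ ∃ i₀, ∀ i, i ≠ i₀ → ∀ v ∈ A, x i • v = v)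
    (ω : Ω) :
    (∀ g ∈ N, (∀ v ∈ B.orthogonal A, g • v = v) → g • ω = ω) ∨ ∃ i, (∀ v ∈ A, x i • v = v) ∧ x i • ω = ω := by
  have : Finite V := Module.finite_of_finite F
  have hfd : Finite A := inferInstance
  have : Finite (Sp (B.restrict A)) := Finite.of_injective (fun t : Sp (B.restrict A) => (t.1 : A → A)) fun s t hst =>
    Subtype.ext (LinearEquiv.ext fun v => congrFun hst v)
  have E := spEnv h hE hdim
  have hd' : 6 ≤ finrank F A ∨ (finrank F A = 4 ∧ 3 ≤ Nat.card F) ∨ 4 ≤ Nat.card F := by tauto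
  have hcard : Nat.card N = Nat.card S := Nat.card_congr eS.toEquiv
  rcases E.mrule (by rw [hcard]; exact hIH) (emb h.nalt hA) (emb_injective h.nalt hA)
    (E.range_ne (perfect_Sp h.nalt hV) (emb h.nalt hA) (emb_not_surj h.nalt hA hAt)) (perfect_Sp hA hd')
    (simple_Sp hA hd) (ncomm_Sp hA hd) (fun i => lf_lft h (x i)) hx hcov
    (fun i s => ⟨_, cj_emb h.nalt hA (lft h (x i)) (hinv i) s⟩)
    (by
      rcases hg with hg | ⟨i₀, hi₀⟩
      · exact Or.inl ⟨cl_Sp hA hd, hg⟩
      · exact Or.inr ⟨i₀, fun i hi => (cent_emb_iff h (hN i) hA (hinv i)).2 (hi₀ i hi)⟩) ω with h1 | ⟨i, h1, h2⟩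
  · left
    intro g hg hgA
    obtain ⟨t, rfl⟩ := exists_emb h hg hA hgA
    exact h1 t
  · exact Or.inr ⟨i, (cent_emb_iff h (hN i) hA (hinv i)).1 h1, h2⟩

end rule

section lin

variable {F V G : Type*} [Field F] [AddCommGroup V] [Module F V] [Group G] [DistribMulAction G V]
  {B : LinearMap.BilinForm F V} {N : Subgroup G}

open Polynomial in
/-- elements of `N` commuting with `a` commute with the polynomials in `a` -/
theorem aeval_comm (h : Ev B N) (a : V →ₗ[F] V) {g : G} (hg : g ∈ N) (hc : ∀ v, g • a v = a (g • v)) (p : F[X]) (v : V) :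
    g • (aeval a p : Module.End F V) v = (aeval a p : Module.End F V) (g • v) := by
  induction p using Polynomial.induction_on' generalizing v with
  | add p q hp hq => rw [map_add, LinearMap.add_apply, LinearMap.add_apply, smul_add, hp, hq]
  | monomial n c =>
    rw [aeval_monomial]
    have h1 : ∀ w : V, (algebraMap F (Module.End F V) c * a ^ n) w = c • (a ^ n) w := fun w => rfl
    rw [h1, h1, h.lin hg]
    congr 1
    clear h1
    induction n generalizing v with
    | zero => rfl
    | succ n ih => rw [pow_succ, Module.End.mul_apply, Module.End.mul_apply, ih, hc]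

open Polynomial in
/-- polynomials in a self-adjoint map are self-adjoint -/
theorem aeval_adj (a : V →ₗ[F] V) (hadj : ∀ u v, B (a u) v = B u (a v)) (p : F[X]) (u v : V) :
    B ((aeval a p : Module.End F V) u) v = B u ((aeval a p : Module.End F V) v) := by
  induction p using Polynomial.induction_on' generalizing u v with
  | add p q hp hq => rw [map_add, LinearMap.add_apply, LinearMap.add_apply, map_add, LinearMap.add_apply, map_add, hp, hq]
  | monomial n c =>
    rw [aeval_monomial]
    have h1 : ∀ w : V, (algebraMap F (Module.End F V) c * a ^ n) w = c • (a ^ n) w := fun w => rfl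
    rw [h1, h1, map_smul, LinearMap.smul_apply, map_smul]
    congr 1
    clear h1
    induction n generalizing u v with
    | zero => rfl
    | succ n ih =>
      rw [pow_succ, Module.End.mul_apply, ih, hadj, ← Module.End.mul_apply, ← pow_succ', ← pow_succ]

open Polynomial in
/-- **Decomposition** from a self-adjoint element with reducible squarefree minimal polynomial. -/
theorem exists_split [FiniteDimensional F V] [Nontrivial V] (h : Ev B N) (a : V →ₗ[F] V)
    (hadj : ∀ u v, B (a u) v = B u (a v)) (hsq : Squarefree (minpoly F a)) (hirr : ¬ Irreducible (minpoly F a)) :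
    ∃ A : Submodule F V, A ≠ ⊥ ∧ A ≠ ⊤ ∧ NAlt (B.restrict A) ∧
      ∀ g ∈ N, (∀ v, g • a v = a (g • v)) → ∀ v ∈ A, g • v ∈ A := by
  have hint : IsIntegral F a := Algebra.IsIntegral.isIntegral a
  have hnu : ¬ IsUnit (minpoly F a) := minpoly.not_isUnit F a
  obtain ⟨p, q, hpq, hp, hq⟩ : ∃ p q, minpoly F a = p * q ∧ ¬ IsUnit p ∧ ¬ IsUnit q := by
    by_contra hno
    push Not at hno
    apply hirr
    refine ⟨hnu, fun p q hpq => ?_⟩
    by_contra hno2
    push Not at hno2
    exact hno2.2 (hno p q hpq hno2.1)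
  have hcop : IsCoprime p q := by
    rw [hpq, squarefree_mul_iff] at hsq
    exact hsq.1.isCoprime
  have hp0 : p ≠ 0 := by rintro rfl; rw [zero_mul] at hpq; exact minpoly.ne_zero hint hpq
  have hq0 : q ≠ 0 := by rintro rfl; rw [mul_zero] at hpq; exact minpoly.ne_zero hint hpq
  have hpq0 : (aeval a (p * q) : Module.End F V) = 0 := by rw [← hpq]; exact minpoly.aeval F a
  have hpne : (aeval a p : Module.End F V) ≠ 0 := by
    intro h1
    have h2 := minpoly.dvd F a h1
    rw [hpq] at h2
    have h3 : p * q ∣ p * 1 := by rwa [mul_one]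
    exact hq (isUnit_of_dvd_one ((mul_dvd_mul_iff_left hp0).1 h3))
  have hqne : (aeval a q : Module.End F V) ≠ 0 := by
    intro h1
    have h2 := minpoly.dvd F a h1
    rw [hpq] at h2
    have h3 : p * q ∣ 1 * q := by rwa [one_mul]
    exact hp (isUnit_of_dvd_one ((mul_dvd_mul_iff_right hq0).1 h3))
  obtain ⟨α, β, hαβ⟩ := hcop
  -- `v = α(a) p(a) v + β(a) q(a) v`
  have hdec : ∀ v : V, v = (aeval a (α * p) : Module.End F V) v + (aeval a (β * q) : Module.End F V) v := by
    intro v
    rw [← LinearMap.add_apply, ← map_add, hαβ, map_one]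
    rfl
  have hzero : ∀ (s : F[X]) (v : V), (aeval a p : Module.End F V) ((aeval a (s * q) : Module.End F V) v) = 0 := by
    intro s v
    rw [← Module.End.mul_apply, ← map_mul, show p * (s * q) = s * (p * q) by ring, map_mul, hpq0, mul_zero]
    rfl
  refine ⟨LinearMap.ker (aeval a p : Module.End F V), ?_, ?_, ?_, ?_⟩
  · intro hb
    apply hqne
    apply LinearMap.ext
    intro v
    have h1 : (aeval a q : Module.End F V) v ∈ LinearMap.ker (aeval a p : Module.End F V) := by
      rw [LinearMap.mem_ker]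
      have := hzero 1 v
      rwa [one_mul] at this
    rw [hb, Submodule.mem_bot] at h1
    exact h1
  · intro ht
    apply hpne
    exact LinearMap.ker_eq_top.1 ht
  · refine ⟨fun v => h.alt v, fun u hu => ?_⟩
    apply Subtype.ext
    apply h.nd
    intro v
    have h1 : B (u : V) ((aeval a (α * p) : Module.End F V) v) = 0 := by
      rw [← aeval_adj a hadj, map_mul, Module.End.mul_apply, LinearMap.mem_ker.1 u.2, map_zero, map_zero,
        LinearMap.zero_apply]
    have h2 : B (u : V) ((aeval a (β * q) : Module.End F V) v) = 0 :=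
      hu ⟨_, LinearMap.mem_ker.2 (hzero β v)⟩
    rw [hdec v, map_add, h1, h2, add_zero]
  · intro g hg hc v hv
    rw [LinearMap.mem_ker] at hv ⊢
    rw [← aeval_comm h a hg hc, hv, smul_zero]

/-- a plane spanned by a hyperbolic pair -/
theorem plane_of (hB : NAlt B) {v w : V} (hvw : B v w ≠ 0) :
    NAlt (B.restrict (Submodule.span F {v, w})) ∧ finrank F (Submodule.span F ({v, w} : Set V)) = 2 := by
  have h1 : NAlt (B.restrict (Submodule.span F {v, w})) := by
    refine ⟨fun u => hB.alt u, ?_⟩
    rintro ⟨u, hu⟩ h2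
    apply Subtype.ext
    show u = 0
    obtain ⟨a, b, rfl⟩ := Submodule.mem_span_pair.1 hu
    have hv : B (a • v + b • w) v = 0 := h2 ⟨v, Submodule.subset_span (by simp)⟩
    have hw : B (a • v + b • w) w = 0 := h2 ⟨w, Submodule.subset_span (by simp)⟩
    rw [map_add, map_smul, map_smul, LinearMap.add_apply, LinearMap.smul_apply, LinearMap.smul_apply, hB.alt, smul_zero,
      zero_add, smul_eq_mul] at hv
    rw [map_add, map_smul, map_smul, LinearMap.add_apply, LinearMap.smul_apply, LinearMap.smul_apply, hB.alt, smul_zero,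
      add_zero, smul_eq_mul] at hw
    have hwv : B w v ≠ 0 := by rw [hB.swap]; exact neg_ne_zero.2 hvw
    rw [(mul_eq_zero.1 hw).resolve_right hvw, (mul_eq_zero.1 hv).resolve_right hwv, zero_smul, zero_smul, add_zero]
  refine ⟨h1, ?_⟩
  have hfd : FiniteDimensional F (Submodule.span F ({v, w} : Set V)) :=
    FiniteDimensional.span_of_finite F (Set.toFinite _)
  obtain ⟨m, hm⟩ := exists_dim h1
  have h2 : finrank F (Submodule.span F ({v, w} : Set V)) ≤ 2 := by
    classical
    have h3 := finrank_span_finset_le_card (R := F) ({v, w} : Finset V)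
    rw [Finset.coe_pair] at h3
    exact h3.trans Finset.card_le_two
  have hv0 : v ≠ 0 := by
    rintro rfl
    rw [map_zero] at hvw
    exact hvw rfl
  have h3 : finrank F (Submodule.span F ({v, w} : Set V)) ≠ 0 := by
    intro h4
    have h5 := Submodule.finrank_eq_zero.1 h4
    have h6 : v ∈ Submodule.span F ({v, w} : Set V) := Submodule.subset_span (by simp)
    rw [h5, Submodule.mem_bot] at h6
    exact hv0 h6
  omega

/-- `g + g⁻¹` scalar, `g² ≠ 1`: an invariant nondegenerate plane -/
theorem exists_split_scalar (h : Ev B N) {g : G} (hg : g ∈ N) {τ : F} (hτ : ∀ v : V, g • v + g⁻¹ • v = τ • v)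
    (hg2 : g * g ≠ 1) : ∃ A : Submodule F V, finrank F A = 2 ∧ NAlt (B.restrict A) ∧ ∀ v ∈ A, g • v ∈ A := by
  obtain ⟨v, hv⟩ : ∃ v : V, B v (g • v) ≠ 0 := by
    by_contra hno
    push Not at hno
    apply hg2
    apply h.inj
    intro w
    rw [mul_smul]
    have h1 : ∀ u : V, B (g • w + g⁻¹ • w) u = 0 := by
      intro u
      have h2 := hno (u + w)
      rw [smul_add, map_add, map_add, LinearMap.add_apply, LinearMap.add_apply, hno, hno, zero_add, add_zero] at h2
      have h3 : B w (g • u) = B (g⁻¹ • w) u := by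
        have := h.isom (N.inv_mem hg) w (g • u)
        rw [inv_smul_smul] at this
        exact this.symm
      rw [map_add, LinearMap.add_apply, ← h3, h.symm (g • w) u]
      rw [h3] at h2 ⊢
      linear_combination h2
    have h4 := h.nd _ h1
    have h5 : g • w = g⁻¹ • w := by
      rw [← h.vneg (g⁻¹ • w)]
      exact eq_neg_of_add_eq_zero_left h4
    rw [h5, smul_inv_smul]
  refine ⟨_, (plane_of h.nalt hv).2, (plane_of h.nalt hv).1, ?_⟩
  intro u hu
  obtain ⟨a, b, rfl⟩ := Submodule.mem_span_pair.1 hu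
  rw [smul_add, h.lin hg, h.lin hg]
  have h1 : g • g • v = τ • g • v + v := by
    have h2 := hτ (g • v)
    rw [inv_smul_smul] at h2
    rw [← h2, add_assoc, h.vadd_self, add_zero]
  rw [h1]
  refine Submodule.mem_span_pair.2 ⟨b, a + b * τ, ?_⟩
  rw [smul_add, smul_smul, add_smul]
  abel

end lin

section four

variable {F V : Type*} [Field F] [AddCommGroup V] [Module F V] [FiniteDimensional F V] {B : LinearMap.BilinForm F V}

/-- in dimension two, `t + t⁻¹` is a scalar -/
theorem two_scal (hB : NAlt B) (hd : finrank F V = 2) (t : Sp B) :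
    ∃ τ : F, ∀ v, t.1 v + (t⁻¹).1 v = τ • v := by
  refine scal_of_lines (by omega) ((t.1 : V →ₗ[F] V) + ((t⁻¹).1 : V →ₗ[F] V)).toAddMonoidHom fun v => ?_
  show ∃ c : F, t.1 v + (t⁻¹).1 v = c • v
  by_cases hv : v = 0
  · exact ⟨0, by rw [hv, map_zero, map_zero, add_zero, zero_smul]⟩
  obtain ⟨w, hw⟩ := hB.exists_one hv
  have hw0 : B v w ≠ 0 := by rw [hw]; exact one_ne_zero
  have htop : Submodule.span F ({v, w} : Set V) = ⊤ :=
    Submodule.eq_top_of_finrank_eq (by rw [(plane_of hB hw0).2, hd])
  have h1 : t.1 v + (t⁻¹).1 v ∈ Submodule.span F ({v, w} : Set V) := by rw [htop]; trivial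
  obtain ⟨a, b, hab⟩ := Submodule.mem_span_pair.1 h1
  have h2 : B (t.1 v + (t⁻¹).1 v) v = 0 := by
    have h3 : B ((t⁻¹).1 v) v = B v (t.1 v) := by
      have h4 := t.2 ((t⁻¹).1 v) v
      rw [← h4]
      congr 2
      show t.1 (t.1.symm v) = v
      exact LinearEquiv.apply_symm_apply _ _
    rw [map_add, LinearMap.add_apply, h3, hB.swap (t.1 v) v, neg_add_cancel]
  rw [← hab, map_add, map_smul, map_smul, LinearMap.add_apply, LinearMap.smul_apply, LinearMap.smul_apply, hB.alt,
    smul_zero, zero_add, smul_eq_mul, hB.swap w v, hw, mul_neg, mul_one, neg_eq_zero] at h2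
  exact ⟨a, by rw [← hab, h2, zero_smul, add_zero]⟩

/-- the orders of the elements of `Sp₂(4)` -/
theorem sp_two_four [Finite F] (hB : NAlt B) (h2 : (2 : F) = 0) (hF : Nat.card F = 4) (hd : finrank F V = 2) (t : Sp B) :
    t ^ 2 = 1 ∨ t ^ 3 = 1 ∨ t ^ 5 = 1 := by
  obtain ⟨τ, hτ⟩ := two_scal hB hd t
  have hneg : ∀ v : V, v + v = 0 := fun v => by rw [← two_smul F v, h2, zero_smul]
  have hsq : ∀ v, t.1 (t.1 v) = τ • t.1 v + v := by
    intro v
    have h3 := hτ (t.1 v)
    have h4 : (t⁻¹).1 (t.1 v) = v := LinearEquiv.symm_apply_apply t.1 v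
    rw [h4] at h3
    rw [← h3, add_assoc, hneg, add_zero]
  have hp : ∀ (n : ℕ) (v : V), (t ^ (n + 1)).1 v = t.1 ((t ^ n).1 v) := by
    intro n v
    rw [pow_succ']
    rfl
  have h0 : ∀ v, (t ^ 0).1 v = v := fun v => rfl
  have hfin : τ = 0 ∨ τ ^ 3 = 1 := by
    by_cases h : τ = 0
    · exact Or.inl h
    · right
      have : Fintype F := Fintype.ofFinite F
      have h3 := FiniteField.pow_card_sub_one_eq_one τ h
      rw [← Nat.card_eq_fintype_card, hF] at h3
      exact h3
  have hext : ∀ s : Sp B, (∀ v, s.1 v = v) → s = 1 := fun s hs => Subtype.ext (LinearEquiv.ext hs)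
  rcases hfin with h | h
  · left
    apply hext
    intro v
    rw [hp, hp, h0, hsq, h, zero_smul, zero_add]
  · right
    have hfac : (τ + 1) * (τ ^ 2 + τ + 1) = 0 := by linear_combination h + (τ ^ 2 + τ + 1) * h2
    rcases mul_eq_zero.1 hfac with h3 | h3
    · left
      have h4 : τ = 1 := by linear_combination h3 - h2
      apply hext
      intro v
      rw [hp, hp, hp, h0, hsq v, map_add, map_smul, hsq v, h4, one_smul, one_smul]
      have h5 := hneg (t.1 v)
      calc t.1 v + v + t.1 v = (t.1 v + t.1 v) + v := by abel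
        _ = v := by rw [h5, zero_add]
    · right
      apply hext
      intro v
      rw [hp, hp, hp, hp, hp, h0]
      simp only [hsq, map_add, map_smul, smul_add, smul_smul]
      have key : (τ * τ * τ * τ + τ * τ + τ * τ + τ * τ + 1) • t.1 v + (τ * τ * τ + τ + τ) • v = v := by
        have c1 : τ * τ * τ * τ + τ * τ + τ * τ + τ * τ + 1 = 0 := by
          linear_combination (τ ^ 2 - τ + 3) * h3 + (-τ - 1) * h2
        have c2 : τ * τ * τ + τ + τ = 1 := by linear_combination h + τ * h2
        rw [c1, c2, zero_smul, one_smul, zero_add]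
      rw [← sub_eq_zero]
      rw [← sub_eq_zero] at key
      rw [← key]
      module

end four

end Cfsg.Agent.H842.RC
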